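import Cfsg.Agent.H660.OddM.RealLin
import Cfsg.Agent.S0245

/-!
# Every prime dividing `|PSp(2n, q)|` is real, `q` odd, `n ≥ 2` (TEAM ODDM, S4785, helper517)

* `realP_psp_char` : the characteristic: `(1 1; 0 1) ⊕ (1 -1; 0 1)` is inverted by the exchange of the two blocks
* `realP_psp_of_dvd` : every prime divisor of `|PSp(2n, q)|`
-/

set_option autoImplicit false

namespace Cfsg.Agent.H517.OddM

open Matrix Cfsg Cfsg.Agent.H453.OddM

section

variable {F : Type*} [Field F] {n : ℕ}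

/-- `(1 B; 0 1)` for a diagonal matrix `B` -/
def sieg (b : Fin n → F) : symplecticGroup (Fin n) F :=
  ⟨Matrix.fromBlocks 1 (Matrix.diagonal b) 0 1, by
    rw [SymplecticGroup.mem_iff, Matrix.J, Matrix.fromBlocks_transpose, Matrix.fromBlocks_multiply,
      Matrix.fromBlocks_multiply]
    simp⟩

theorem sieg_coe (b : Fin n → F) : (sieg b : Matrix (Fin n ⊕ Fin n) (Fin n ⊕ Fin n) F) =
    Matrix.fromBlocks 1 (Matrix.diagonal b) 0 1 := rfl

theorem sieg_mul (b c : Fin n → F) : sieg b * sieg c = sieg (b + c) := by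
  apply Subtype.ext
  change Matrix.fromBlocks 1 (Matrix.diagonal b) 0 1 * Matrix.fromBlocks 1 (Matrix.diagonal c) 0 1 =
    Matrix.fromBlocks 1 (Matrix.diagonal (b + c)) 0 1
  rw [Matrix.fromBlocks_multiply]
  simp only [mul_one, one_mul, mul_zero, zero_mul, add_zero, zero_add]
  rw [Matrix.diagonal_add, add_comm b c]
  rfl

theorem sieg_zero : sieg (0 : Fin n → F) = 1 := by
  apply Subtype.ext
  change Matrix.fromBlocks 1 (Matrix.diagonal (0 : Fin n → F)) 0 1 = 1
  rw [Matrix.diagonal_zero', Matrix.fromBlocks_one]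

theorem sieg_pow (b : Fin n → F) (k : ℕ) : sieg b ^ k = sieg (k • b) := by
  induction k with
  | zero => rw [pow_zero, zero_smul, sieg_zero]
  | succ k ih => rw [pow_succ, ih, sieg_mul, succ_nsmul]

theorem sieg_inv (b : Fin n → F) : (sieg b)⁻¹ = sieg (-b) := by
  rw [inv_eq_iff_mul_eq_one, sieg_mul, add_neg_cancel, sieg_zero]

theorem sieg_injective : Function.Injective (sieg : (Fin n → F) → symplecticGroup (Fin n) F) := by
  intro b c h
  have h1 := congrArg (fun z : symplecticGroup (Fin n) F => (z : Matrix (Fin n ⊕ Fin n) (Fin n ⊕ Fin n) F)) h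
  simp only [sieg_coe, Matrix.fromBlocks_inj] at h1
  exact Matrix.diagonal_injective h1.2.1

/-- the permutation of the hyperbolic planes -/
def permSp (σ : Equiv.Perm (Fin n)) : symplecticGroup (Fin n) F :=
  ⟨Matrix.fromBlocks (σ.permMatrix F) 0 0 (σ.permMatrix F), by
    rw [SymplecticGroup.mem_iff, Matrix.J, Matrix.fromBlocks_transpose, Matrix.fromBlocks_multiply,
      Matrix.fromBlocks_multiply]
    have h1 : σ.permMatrix F * (σ.permMatrix F)ᵀ = 1 := by
      rw [Matrix.transpose_permMatrix, ← Matrix.permMatrix_mul, inv_mul_cancel, Matrix.permMatrix_one]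
    simp only [Matrix.transpose_zero, mul_zero, zero_mul, mul_one, add_zero, zero_add, mul_neg, neg_mul, h1,
      neg_zero]⟩

theorem perm_diag (σ : Equiv.Perm (Fin n)) (b : Fin n → F) :
    σ.permMatrix F * Matrix.diagonal b = Matrix.diagonal (b ∘ σ) * σ.permMatrix F := by
  ext i j
  rw [Matrix.mul_diagonal, Matrix.diagonal_mul]
  change (σ.toPEquiv.toMatrix : Matrix (Fin n) (Fin n) F) i j * b j =
    b (σ i) * (σ.toPEquiv.toMatrix : Matrix (Fin n) (Fin n) F) i j
  rw [PEquiv.toMatrix_toPEquiv_apply]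
  by_cases h : σ i = j
  · subst h
    rw [mul_comm]
  · rw [Pi.single_eq_of_ne (Ne.symm h), zero_mul, mul_zero]

theorem permSp_conj (σ : Equiv.Perm (Fin n)) (b : Fin n → F) :
    permSp σ * sieg b * (permSp σ)⁻¹ = sieg (b ∘ σ) := by
  rw [mul_inv_eq_iff_eq_mul]
  apply Subtype.ext
  change Matrix.fromBlocks (σ.permMatrix F) 0 0 (σ.permMatrix F) * Matrix.fromBlocks 1 (Matrix.diagonal b) 0 1 =
    Matrix.fromBlocks 1 (Matrix.diagonal (b ∘ σ)) 0 1 * Matrix.fromBlocks (σ.permMatrix F) 0 0 (σ.permMatrix F)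
  rw [Matrix.fromBlocks_multiply, Matrix.fromBlocks_multiply]
  simp only [mul_one, one_mul, mul_zero, zero_mul, add_zero, zero_add]
  rw [perm_diag]

/-- `(1 1; 0 1) ⊕ (1 -1; 0 1)` -/
def vec (n : ℕ) (F : Type*) [Field F] : Fin n → F := fun i => if (i : ℕ) = 0 then 1 else if (i : ℕ) = 1 then -1 else 0

theorem vec_swap (hn : 2 ≤ n) : vec n F ∘ Equiv.swap (⟨0, by omega⟩ : Fin n) ⟨1, by omega⟩ = - vec n F := by
  funext i
  rw [Function.comp_apply, Pi.neg_apply]
  by_cases h0 : i = ⟨0, by omega⟩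
  · subst h0
    rw [Equiv.swap_apply_left]
    simp [vec]
  · by_cases h1 : i = ⟨1, by omega⟩
    · subst h1
      rw [Equiv.swap_apply_right]
      simp [vec]
    · rw [Equiv.swap_apply_of_ne_of_ne h0 h1]
      have h2 : (i : ℕ) ≠ 0 := fun h => h0 (Fin.ext h)
      have h3 : (i : ℕ) ≠ 1 := fun h => h1 (Fin.ext h)
      simp [vec, h2, h3]

theorem isReal_sieg (hn : 2 ≤ n) : IsReal (sieg (vec n F)) :=
  ⟨permSp (Equiv.swap ⟨0, by omega⟩ ⟨1, by omega⟩), by rw [permSp_conj, vec_swap hn, sieg_inv]⟩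

theorem orderOf_sieg {p : ℕ} [CharP F p] (hp : p.Prime) (hn : 1 ≤ n) : orderOf (sieg (vec n F)) = p := by
  have := Fact.mk hp
  refine orderOf_eq_prime ?_ ?_
  · rw [sieg_pow, ← sieg_zero]
    congr 1
    funext i
    rw [Pi.smul_apply, nsmul_eq_mul, CharP.cast_eq_zero, zero_mul, Pi.zero_apply]
  · intro h
    rw [← sieg_zero] at h
    have h1 := congrFun (sieg_injective h) ⟨0, by omega⟩
    simp [vec] at h1

/-- **The characteristic is a real prime.** -/
theorem realP_psp_char {p : ℕ} [CharP F p] (hp : p.Prime) (hp2 : p ≠ 2) (hn : 2 ≤ n) : RealP (PSp n F) p :=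
  realP_quot_center (hp.odd_of_ne_two hp2) ⟨sieg (vec n F), orderOf_sieg hp (by omega), isReal_sieg hn⟩

end

/-- **Every prime divisor of `|PSp(2n, q)|` is real**, `q` odd, `n ≥ 2`. -/
theorem realP_psp_of_dvd {F : Type*} [Field F] [Fintype F] {n : ℕ} (h2 : (2 : F) ≠ 0) (hn : 2 ≤ n) {r : ℕ}
    (hr : r.Prime) (hd : r ∣ Nat.card (PSp n F)) : RealP (PSp n F) r := by
  have hfin : Finite (PSp n F) := Quotient.finite _
  by_cases hr2 : r = 2
  · subst hr2
    exact realP_two hd
  have h1 : r ∣ Nat.card (symplecticGroup (Fin n) F) := hd.trans (Subgroup.card_quotient_dvd_card _)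
  rw [S0245.result (F := F) rfl n] at h1
  rcases hr.dvd_mul.1 h1 with h3 | h3
  · obtain ⟨p, hp⟩ := CharP.exists F
    obtain ⟨k, hpp, hk⟩ := FiniteField.card F p
    have h4 := hr.dvd_of_dvd_pow h3
    rw [hk] at h4
    have h5 : r = p := (Nat.prime_dvd_prime_iff_eq hr hpp).1 (hr.dvd_of_dvd_pow h4)
    subst h5
    exact realP_psp_char hr hr2 hn
  · obtain ⟨i, hi, h4⟩ := (hr.prime.dvd_finsetProd_iff _).1 h3
    rw [Finset.mem_range] at hi
    have h5 := realP_psp_pow (F := F) (m := n) (e := 2 * (i + 1)) (a := 1) h2 hr hr2 (by omega)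
      (Or.inl ⟨even_two_mul _, by omega⟩) (by rwa [pow_one])
    rwa [pow_one] at h5

end Cfsg.Agent.H517.OddM
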